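import Cfsg.Agent.H600.Red
import Cfsg.Agent.H594.Cyclic
import Cfsg.Agent.S4488
import Mathlib.GroupTheory.SemidirectProduct
set_option linter.all false

/-!
# The irreducible case of the bound for `p`-groups of automorphisms, by the canonical extension
-/

set_option autoImplicit false

namespace Cfsg.Agent.H600.Canon

open Cfsg Cfsg.Agent.Characters Cfsg.Agent.Characters.Core Cfsg.Agent.H600.Lam Cfsg.Agent.H600.Red
open scoped ComplexConjugate

universe u

/-- The canonical extension is rational on a `p`-subgroup. -/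
theorem rat_of_canonical {Γ : Type u} [Group Γ] [Finite Γ] {p : ℕ} (hp : p.Prime) (G : Subgroup Γ)
    [hGn : G.Normal] {χh : Γ → ℂ}
    (hχh : IsIrrCharacter Γ χh) (hres : IsIrrCharacter G (fun g : G => χh g))
    (hcop : (Nat.card G).Coprime G.index) (hdet : (detOrder χh).Coprime G.index)
    (hidx : ∃ k, G.index = p ^ k) (hcp : (Nat.card G).Coprime p)
    {g : Γ} {k : ℕ} (hg : g ^ p ^ k = 1) : ∃ a : ℚ, χh g = a := by
  apply GaloisBasic.exists_rat_of_forall_ringEquiv
  · exact (GaloisBasic.isIntegral_apply (isIrr_isCharacter hχh) g).tower_top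
  · intro σ
    have hpk : p ^ k ≠ 0 := pow_ne_zero _ hp.ne_zero
    -- use exponent p ^ (k + 1)
    have hpk1 : p ^ (k + 1) ≠ 0 := pow_ne_zero _ hp.ne_zero
    have hg1 : g ^ p ^ (k + 1) = 1 := by rw [pow_succ, pow_mul, hg, one_pow]
    obtain ⟨m, hm, hσ⟩ := GaloisBasic.exists_coprime_pow (σ : ℂ →+* ℂ) hpk1
    have h1 : (σ : ℂ →+* ℂ) (χh g) = χh (g ^ m) :=
      GaloisBasic.map_apply (σ : ℂ →+* ℂ) hσ (isIrr_isCharacter hχh) hpk1 hg1
    have hc : (p ^ (k + 1)).Coprime (Nat.card G) := Nat.Coprime.pow_left _ hcp.symm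
    obtain ⟨m', hm'1, hm'2⟩ := Nat.chineseRemainder hc m 1
    have hmp : m'.Coprime p := by
      have h2 : m'.Coprime (p ^ (k + 1)) := by
        have := hm'1.gcd_eq
        rw [Nat.Coprime, this]
        exact hm
      exact Nat.Coprime.coprime_dvd_right (dvd_pow_self p (Nat.succ_ne_zero k)) h2
    have hmc : m'.Coprime (Nat.card Γ) := by
      rw [← Subgroup.card_mul_index G]
      apply Nat.Coprime.mul_right
      · have := hm'2.gcd_eq
        rw [Nat.Coprime, this, Nat.gcd_one_left]
      · obtain ⟨j, hj⟩ := hidx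
        rw [hj]
        exact Nat.Coprime.pow_right _ hmp
    have h3 : g ^ m' = g ^ m := by
      have hd : orderOf g ∣ p ^ (k + 1) := orderOf_dvd_of_pow_eq_one hg1
      exact pow_eq_pow_iff_modEq.2 (hm'1.of_dvd hd)
    have h4 := H594.Cyclic.canonical_pow G hχh hres hcop hdet hmc hm'2 g
    show σ (χh g) = χh g
    have h7 : σ (χh g) = χh (g ^ m) := h1
    rw [h7, ← h3, h4]

/-- The irreducible case. -/
theorem card_le_of_irr {p n : ℕ} (hp : p.Prime)
    {N : Type u} [Group N] [Finite N] (A : Subgroup (MulAut N)) (χ : N → ℂ)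
    (hA : IsPGroup p A) (hcop : (Nat.card N).Coprime p) (hχ : IsIrrCharacter N χ)
    (hf : ∀ x, χ x = χ 1 → x = 1) (hinv : ∀ a ∈ A, ∀ x, χ (a x) = χ x) (h1 : χ 1 = n) :
    Nat.card A ≤ p ^ lam p n := by
  classical
  have : Fact p.Prime := ⟨hp⟩
  let Γ := N ⋊[A.subtype] A
  have hΓ : Finite Γ := Finite.of_equiv _ SemidirectProduct.equivProd.symm
  have hcardΓ : Nat.card Γ = Nat.card N * Nat.card A := SemidirectProduct.card
  let G : Subgroup Γ := (SemidirectProduct.inl : N →* Γ).range
  have hGn : G.Normal := by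
    show (SemidirectProduct.inl : N →* Γ).range.Normal
    rw [SemidirectProduct.range_inl_eq_ker_rightHom]
    infer_instance
  let e : N ≃* G := MonoidHom.ofInjective (f := (SemidirectProduct.inl : N →* Γ))
    SemidirectProduct.inl_injective
  have he : ∀ x : N, ((e x : G) : Γ) = SemidirectProduct.inl x := fun _ => rfl
  have hcardG : Nat.card G = Nat.card N := (Nat.card_congr e.toEquiv).symm
  have hidx : G.index = Nat.card A := by
    have h2 := Subgroup.card_mul_index G
    rw [hcardG, hcardΓ] at h2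
    exact Nat.eq_of_mul_eq_mul_left Nat.card_pos h2
  obtain ⟨k, hk⟩ := IsPGroup.iff_card.1 hA
  let θ : G → ℂ := χ ∘ e.symm
  have hθ : IsIrrCharacter G θ := isIrr_comp e.symm.toMonoidHom e.symm.surjective hχ
  have hθe : ∀ x : N, θ (e x) = χ x := fun x => by
    show χ (e.symm (e x)) = χ x
    rw [MulEquiv.symm_apply_apply]
  have hθinv : ∀ (g : Γ) (x : G), θ ⟨g * x * g⁻¹, hGn.conj_mem (x : Γ) x.2 g⟩ = θ x := by
    intro g x
    obtain ⟨y, rfl⟩ := e.surjective x
    have h2 : (⟨g * (e y : G) * g⁻¹, hGn.conj_mem ((e y : G) : Γ) (e y).2 g⟩ : G) =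
        e (g.left * (((g.right : A) : MulAut N) y) * (g.left)⁻¹) := by
      apply Subtype.ext
      show g * (SemidirectProduct.inl y : Γ) * g⁻¹ =
        SemidirectProduct.inl (g.left * (((g.right : A) : MulAut N) y) * (g.left)⁻¹)
      conv_lhs => rw [← SemidirectProduct.inl_left_mul_inr_right g]
      rw [map_mul, map_mul, map_inv, mul_inv_rev]
      have h3 : (SemidirectProduct.inr g.right : Γ) * SemidirectProduct.inl y *
          (SemidirectProduct.inr g.right)⁻¹ =
          SemidirectProduct.inl (((g.right : A) : MulAut N) y) := by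
        rw [← map_inv]
        exact (SemidirectProduct.inl_aut g.right y).symm
      rw [← h3]
      group
    rw [h2, hθe, hθe]
    have h4 := isIrr_isClassFunction hχ (((g.right : A) : MulAut N) y) g.left
    rw [h4]
    exact hinv _ g.right.2 y
  have hθ1 : θ 1 = n := by
    rw [← h1]
    show χ (e.symm 1) = χ 1
    rw [map_one]
  have hcopA : (Nat.card N).Coprime (Nat.card A) := by
    rw [hk]
    exact Nat.Coprime.pow_right _ hcop
  have hcop' : Nat.Coprime G.index (detOrder θ * n) := by
    rw [hidx]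
    apply Nat.Coprime.mul_right
    · have h2 := H594.Cyclic.detOrder_dvd hθ
      rw [hcardG] at h2
      exact (Nat.Coprime.coprime_dvd_left h2 hcopA).symm
    · have h2 := H594.Cyclic.degree_dvd hθ hθ1
      rw [hcardG] at h2
      exact (Nat.Coprime.coprime_dvd_left h2 hcopA).symm
  obtain ⟨χh, ⟨hχh, hres, hdet⟩, -⟩ := Cfsg.Agent.S0867.result G θ hθ hθinv n hθ1 hcop'
  have hresfun : (fun g : G => χh g) = θ := funext hres
  have hdetc : (detOrder χh).Coprime G.index := by
    rw [hdet]
    exact (Nat.Coprime.coprime_mul_right_right hcop').symm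
  have hcopG : (Nat.card G).Coprime G.index := by
    rw [hcardG, hidx]
    exact hcopA
  let ψ : A → ℂ := χh ∘ (SemidirectProduct.inr : A →* Γ)
  have hψ : IsCharacter A ψ := isCharacter_comp _ (isIrr_isCharacter hχh)
  have hψ1 : ψ 1 = n := by
    show χh ((SemidirectProduct.inr : A →* Γ) 1) = n
    rw [map_one]
    have h2 := hres 1
    rw [hθ1] at h2
    exact h2
  have hrat : ∀ a : A, ∃ q : ℚ, ψ a = q := by
    intro a
    obtain ⟨j, hj⟩ := hA a
    refine rat_of_canonical (k := j) hp G hχh (by rw [hresfun]; exact hθ) hcopG hdetc ⟨k, ?_⟩ ?_ ?_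
    · rw [hidx, hk]
    · rw [hcardG]
      exact hcop
    · rw [← map_pow, hj, map_one]
  have hψf : ∀ a : A, ψ a = ψ 1 → a = 1 := by
    intro a ha
    obtain ⟨d, ρ, hρ, rfl⟩ := hχh
    have h2 : ρ (SemidirectProduct.inr a : Γ) = 1 := by
      rw [← char_eq_one_iff]
      have h3 : ρ.character ((SemidirectProduct.inr : A →* Γ) a) =
        ρ.character ((SemidirectProduct.inr : A →* Γ) 1) := ha
      rw [map_one] at h3
      exact h3
    apply Subtype.ext
    apply MulEquiv.ext
    intro x
    show (a : MulAut N) x = x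
    have h4 : χ (x⁻¹ * (a : MulAut N) x) = χ 1 := by
      rw [← hθe, ← hθe, ← hres, ← hres]
      show ρ.character ((e (x⁻¹ * (a : MulAut N) x) : G) : Γ) = ρ.character ((e 1 : G) : Γ)
      rw [he, he, map_mul, map_one]
      have h5 : (SemidirectProduct.inl ((a : MulAut N) x) : Γ) =
          SemidirectProduct.inr a * SemidirectProduct.inl x * (SemidirectProduct.inr a)⁻¹ := by
        rw [← map_inv]
        exact SemidirectProduct.inl_aut a x
      rw [h5, char_eq_one_iff, map_mul, map_mul, map_mul, h2, one_mul]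
      have h6 : ρ (SemidirectProduct.inr a : Γ)⁻¹ = 1 := by
        have h7 : ρ (SemidirectProduct.inr a : Γ) * ρ (SemidirectProduct.inr a : Γ)⁻¹ = 1 := by
          rw [← map_mul, mul_inv_cancel, map_one]
        rw [h2, one_mul] at h7
        exact h7
      rw [h6, mul_one, ← map_mul, ← map_mul, inv_mul_cancel, map_one, map_one]
    exact (inv_mul_eq_one.1 (hf _ h4)).symm
  have hdeg : Cfsg.charDegree ψ = n := by
    unfold Cfsg.charDegree
    rw [hψ1]
    simp
  have h8 := Cfsg.Agent.S4488.result p hp ψ hψ hψf ⟨1, one_pos, hp.one_lt.not_ge ∘ fun h => Nat.le_of_dvd one_pos h, fun a => by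
    obtain ⟨q, hq⟩ := hrat a
    rw [hq]
    exact IntermediateField.algebraMap_mem _ q⟩ n hdeg
  rw [hk, Nat.factorization_pow, Finsupp.smul_apply, hp.factorization_self, smul_eq_mul, mul_one] at h8
  rw [hk]
  exact Nat.pow_le_pow_right hp.pos h8

/-- The bound `|A| ≤ p ^ λ_p(n)`. -/
theorem bd {p : ℕ} (hp : p.Prime) (n c : ℕ) : Bd.{u} p n c := by
  induction n using Nat.strong_induction_on generalizing c with
  | _ n IH =>
    intro N _ _ A χ hA hcop hχ hf hinv h1 hc
    by_cases hirr : IsIrrCharacter N χ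
    · exact card_le_of_irr hp A χ hA hcop hirr hf hinv h1
    · exact card_le_of_reducible hp IH A χ hA hcop hχ hf hinv h1 hirr

end Cfsg.Agent.H600.Canon
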